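import Cfsg.Agent.H93.G2Centralizer

/-!
One class of involutions in G₂ of odd characteristic, and the structure of the centraliser of one.
-/

set_option autoImplicit false

namespace Cfsg.Agent.H93.G2Inv

open Cfsg.Lie Cfsg.Agent.H93.G2Quat Cfsg.Agent.H93.G2Bridge
open scoped Matrix

/-- A subgroup of odd index which is the centraliser of an element, such that all its involutions are
conjugate to that element, meets every class of involutions. -/
theorem isConj_of_odd_index {Γ : Type*} [Group Γ] [Finite Γ] {C : Subgroup Γ} {s t : Γ}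
    (hC : C.index % 2 = 1) (hs : ∀ x ∈ C, x * x = 1 → x ≠ 1 → IsConj s x) (ht : orderOf t = 2) :
    IsConj s t := by
  haveI : Fact (Nat.Prime 2) := ⟨Nat.prime_two⟩
  have hP : IsPGroup 2 (Subgroup.zpowers t) := IsPGroup.of_card (n := 1) (by
    rw [Nat.card_zpowers, ht, pow_one])
  obtain ⟨x, hx⟩ := hP.nonempty_fixed_point_of_prime_not_dvd_card (Γ ⧸ C) (by
    rw [← Subgroup.index_eq_card]; omega)
  obtain ⟨g, rfl⟩ := QuotientGroup.mk_surjective x
  have hfix : ((t * g : Γ) : Γ ⧸ C) = (g : Γ ⧸ C) := hx ⟨t, Subgroup.mem_zpowers t⟩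
  have hmem : g⁻¹ * (t * g) ∈ C := QuotientGroup.eq.1 hfix.symm
  have htt : t * t = 1 := by
    have := pow_orderOf_eq_one t
    rwa [ht, sq] at this
  have ht1 : t ≠ 1 := by
    intro h
    rw [h, orderOf_one] at ht
    omega
  refine (hs _ hmem ?_ ?_).trans (isConj_iff.2 ⟨g, by group⟩)
  · rw [show g⁻¹ * (t * g) * (g⁻¹ * (t * g)) = g⁻¹ * (t * t) * g by group, htt]
    group
  · intro h
    apply ht1
    have := congrArg (fun y => g * y * g⁻¹) h
    simpa [mul_assoc] using this

variable {F : Type*} [Field F]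

/-- Minus one in the special linear group. -/
def mOne (F : Type*) [Field F] : Matrix.SpecialLinearGroup (Fin 2) F :=
  ⟨-1, by simp [Matrix.det_neg]⟩

theorem slPair_mOne : slPair F (1, mOne F) = negPair F :=
  Subtype.ext (Prod.ext (Units.ext rfl) (Units.ext rfl))

theorem phi_slPair_eq_one {x : Matrix.SpecialLinearGroup (Fin 2) F × Matrix.SpecialLinearGroup (Fin 2) F} :
    phi F (slPair F x) = 1 ↔ x = 1 ∨ x = (mOne F, mOne F) := by
  constructor
  · intro h
    obtain ⟨h1, c, hc⟩ := scalar_of_ker h
    rw [slPair_fst] at hc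
    have e2 : x.2.1 = (c : F) • 1 := by
      rw [← slPair_snd, ← h1, slPair_fst, hc]
    have hd := x.1.2
    rw [hc, Matrix.det_smul, Matrix.det_one, mul_one, Fintype.card_fin] at hd
    rcases sq_eq_one_iff.1 hd with e | e
    · left
      exact Prod.ext (Subtype.ext (by rw [hc, e, one_smul]; rfl)) (Subtype.ext (by rw [e2, e, one_smul]; rfl))
    · right
      exact Prod.ext (Subtype.ext (by rw [hc, e, neg_smul, one_smul]; rfl))
        (Subtype.ext (by rw [e2, e, neg_smul, one_smul]; rfl))
  · rintro (rfl | rfl)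
    · rw [map_one, map_one]
    · refine phi_eq_one (Units.ext rfl) fun M => ?_
      rw [slPair_fst]
      exact (Commute.one_left M).neg_left

variable [Fintype F]

/-- Everything about an involution of the Chevalley group. -/
theorem exists_chi_at (hF : Odd (Fintype.card F)) (t : ↥(chevG2.group F)) (ht : orderOf t = 2) :
    ∃ χ : ↥(pairs F) →* ↥(chevG2.group F),
      χ.ker = (phi F).ker ∧ χ (negPair F) = t ∧ Subgroup.centralizer {t} = χ.range ∧
      Nat.card χ.range = Fintype.card F ^ 2 * (Fintype.card F ^ 2 - 1) ^ 2 := by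
  obtain ⟨χ, hidx, hker, hcent, hcard, hconj⟩ := exists_chi (F := F) hF
  have hst : IsConj (χ (negPair F)) t :=
    isConj_of_odd_index hidx (by rintro _ ⟨w, rfl⟩ h h1; exact hconj w h h1) ht
  obtain ⟨g, hg⟩ := isConj_iff.1 hst
  let e := MulAut.conj g
  refine ⟨e.toMonoidHom.comp χ, ?_, ?_, ?_, ?_⟩
  · rw [← hker]
    ext w
    simp [MonoidHom.mem_ker, -MulAut.conj_apply]
  · exact hg
  · rw [MonoidHom.range_comp, ← hcent]
    ext x
    rw [Subgroup.mem_centralizer_singleton_iff, Subgroup.mem_map_equiv,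
      Subgroup.mem_centralizer_singleton_iff]
    conv_rhs => rw [← (MulEquiv.injective e).eq_iff]
    simp only [map_mul, MulEquiv.apply_symm_apply]
    rw [show e (χ (negPair F)) = t from hg]
  · rw [MonoidHom.range_comp, Subgroup.card_map_of_injective e.injective, hcard]

end Cfsg.Agent.H93.G2Inv
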