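import Cfsg.Agent.H72.ThompsonAFaithful
import Cfsg.Agent.H72.LocalFixed
import Cfsg.Agent.H19.Cores

/-!
Glauberman's factorization: in a group of characteristic `p` every conjugation between subgroups of a
Sylow subgroup `T` is composed of conjugations inside `T` by elements of the centralizer of the `p`-th
powers of `Z(T)` and of the normalizer of `J(T)`.
-/

set_option autoImplicit false
set_option linter.style.haveILetI false

namespace Cfsg.Agent.H93.Factorization

open Subgroup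
open scoped commutatorElement Pointwise

universe u

/-- Conjugate of a subgroup. -/
def cjSub {L : Type u} [Group L] (g : L) (A : Subgroup L) : Subgroup L :=
  A.map (MulAut.conj g).toMonoidHom

theorem cjSub_mul {L : Type u} [Group L] (g h : L) (A : Subgroup L) :
    cjSub (h * g) A = cjSub h (cjSub g A) := by
  rw [cjSub, cjSub, cjSub, Subgroup.map_map, map_mul]
  rfl

theorem cjSub_le {L : Type u} [Group L] {g : L} {A B : Subgroup L} :
    cjSub g A ≤ B ↔ ∀ a ∈ A, g * a * g⁻¹ ∈ B :=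
  ⟨fun h a ha => h ⟨a, ha, rfl⟩, fun h => by rintro _ ⟨a, ha, rfl⟩; exact h a ha⟩

variable {p : ℕ} [hp : Fact p.Prime]

/-- A subgroup of largest order among the abelian subgroups, not centralizing the normal abelian `V`,
contains an element acting quadratically and nontrivially on `V`. -/
theorem exists_quadratic_of_maxAb {G : Type u} [Group G] [Finite G] {P V A : Subgroup G} [V.Normal]
    (hPp : IsPGroup p P) (hVP : V ≤ P) (hVc' : ∀ v ∈ V, ∀ w ∈ V, Commute v w)
    (hA : H72.IsMaxAb P A) (hAU : ¬ A ≤ centralizer (V : Set G)) :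
    ∃ b ∈ P, b ∉ centralizer (V : Set G) ∧ ∀ v ∈ V, Commute b ⁅b, v⁆ := by
  have hVc : IsMulCommutative V := ⟨⟨fun x y => Subtype.ext (hVc' x x.2 y y.2).eq⟩⟩
  have hAV : A ≤ normalizer (V : Set G) := le_top.trans_eq (normalizer_eq_top_iff.2 ‹V.Normal›).symm
  have hab : ⁅A, A⁆ ≤ centralizer (V : Set G) := by
    rw [commutator_eq_bot_iff_le_centralizer.2 fun a ha =>
      mem_centralizer_iff.2 fun b hb => hA.2.1 b hb a ha]
    exact bot_le
  obtain ⟨-, hfix⟩ := H34.replacement hAV hab (hA.offNum_le hVP hVc') (le_refl V)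
  set X := ⁅V, A⁆ with hX
  set B := A ⊓ centralizer (X : Set G) with hB
  have hXV : X ≤ V := le_normalizer_iff_commutator_le_left.1 hAV
  have hBU : ¬ B ≤ centralizer (V : Set G) := by
    intro hBU
    have hV : V = X ⊔ (V ⊓ centralizer (A : Set G)) := by
      rw [← hfix]
      exact le_antisymm (le_inf le_rfl fun v hv => mem_centralizer_iff.2 fun b hb =>
        (mem_centralizer_iff.1 (hBU hb) v hv).symm) inf_le_left
    have hle : X ≤ ⁅X, A⁆ := by
      nth_rw 1 [hX]
      refine commutator_le.2 fun v hv a ha => ?_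
      have hn : X ≤ normalizer ((V ⊓ centralizer (A : Set G) : Subgroup G) : Set G) :=
        fun x hx => centralizer_le_normalizer _
          (mem_centralizer_iff.2 fun c hc => (hVc' c hc.1 x (hXV hx)).eq)
      obtain ⟨x, hx, c, hc, rfl⟩ : v ∈ ((X : Set G) * ((V ⊓ centralizer (A : Set G) :
          Subgroup G) : Set G)) := by
        rw [← coe_mul_of_left_le_normalizer_right _ _ hn, SetLike.mem_coe, ← hV]; exact hv
      have hca : Commute c a := (mem_centralizer_iff.1 hc.2 a ha).symm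
      have e : ⁅x * c, a⁆ = ⁅x, a⁆ := by
        calc ⁅x * c, a⁆ = x * (c * a) * c⁻¹ * x⁻¹ * a⁻¹ := by
              simp only [commutatorElement_def]; group
          _ = x * (a * c) * c⁻¹ * x⁻¹ * a⁻¹ := by rw [hca.eq]
          _ = ⁅x, a⁆ := by simp only [commutatorElement_def]; group
      rw [e]; exact commutator_mem_commutator hx ha
    have hXbot : X = ⊥ := by
      by_contra hne
      exact (H20.commutator_lt_of_isPGroup (hPp.to_le (hXV.trans hVP))
        (hPp.to_le hA.1) (by rw [hX]; exact normalizer_commutator_ge_right V A) hne).not_ge hle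
    refine hAU fun a ha => mem_centralizer_iff.2 fun v hv => ?_
    exact (mem_centralizer_iff.1 (commutator_eq_bot_iff_le_centralizer.1 hXbot hv) a ha).symm
  obtain ⟨b, hb, hbV⟩ := SetLike.not_le_iff_exists.1 hBU
  refine ⟨b, hA.1 hb.1, hbV, fun v hv => (mem_centralizer_iff.1 hb.2 _ ?_).symm⟩
  rw [hX, Subgroup.commutator_comm]
  exact commutator_mem_commutator hb.1 hv

/-- An automorphism trivial modulo `p`-th powers has `p`-power order. -/
theorem exists_pow_mem_centralizer {G : Type u} [Group G] [Finite G] {W : Subgroup G} [W.Normal]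
    (hW : IsPGroup p W) (hWc : ∀ v ∈ W, ∀ w ∈ W, Commute v w) {g : G}
    (hg : ∀ w ∈ W, ∃ u ∈ W, g * w * g⁻¹ = w * u ^ p) : ∃ n : ℕ, g ^ p ^ n ∈ centralizer (W : Set G) := by
  have key : ∀ (i : ℕ) (h : G), (∀ w ∈ W, ∃ u ∈ W, h * w * h⁻¹ = w * u ^ p ^ (i + 1)) →
      ∀ w ∈ W, ∃ u ∈ W, h ^ p * w * (h ^ p)⁻¹ = w * u ^ p ^ (i + 2) := by
    intro i h hh w hw
    obtain ⟨u, hu, hue⟩ := hh w hw
    have hj : ∀ j : ℕ, ∃ s ∈ W, h ^ j * w * (h ^ j)⁻¹ = w * (u ^ j * s ^ p) ^ p ^ (i + 1) := by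
      intro j
      induction j with
      | zero => exact ⟨1, one_mem _, by simp⟩
      | succ j ihj =>
        obtain ⟨s, hs, hse⟩ := ihj
        obtain ⟨r, hr, hre⟩ := hh u hu
        set r' := r ^ p ^ i with hr'
        have hs' : h * s * h⁻¹ ∈ W := ‹W.Normal›.conj_mem s hs h
        have hr'W : r' ∈ W := pow_mem hr _
        refine ⟨r' ^ j * (h * s * h⁻¹), mul_mem (pow_mem hr'W j) hs', ?_⟩
        have e1 : h ^ (j + 1) * w * (h ^ (j + 1))⁻¹ = h * (h ^ j * w * (h ^ j)⁻¹) * h⁻¹ := by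
          rw [pow_succ']; simp [mul_assoc]
        rw [e1, hse, ← conj_mul, ← conj_pow, ← conj_mul, ← conj_pow, ← conj_pow, hue, hre,
          show p ^ (i + 1) = p ^ i * p from pow_succ p i, pow_mul r, ← hr', ← pow_succ, mul_assoc w,
          ← Commute.mul_pow (hWc u hu _ (mul_mem (pow_mem (mul_mem hu (pow_mem hr'W p)) j)
            (pow_mem hs' p)))]
        congr 2
        rw [(hWc u hu _ (pow_mem hr'W p)).mul_pow,
          (hWc _ (pow_mem hr'W j) _ hs').mul_pow, ← pow_mul r', mul_comm p j, pow_mul r', pow_succ' u]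
        simp [mul_assoc]
    obtain ⟨s, hs, hse⟩ := hj p
    refine ⟨u * s, mul_mem hu hs, ?_⟩
    rw [hse, ← (hWc u hu s hs).mul_pow, ← pow_mul, ← pow_succ']
  have hall : ∀ i : ℕ, ∀ w ∈ W, ∃ u ∈ W, g ^ p ^ i * w * (g ^ p ^ i)⁻¹ = w * u ^ p ^ (i + 1) := by
    intro i
    induction i with
    | zero => simpa using hg
    | succ i ih =>
      intro w hw
      have := key i _ ih w hw
      rwa [← pow_mul, ← pow_succ] at this
  obtain ⟨n, hn⟩ := hW.exists_card_eq
  refine ⟨n, mem_centralizer_iff.2 fun w hw => ?_⟩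
  obtain ⟨u, hu, hue⟩ := hall n w hw
  have h1 : u ^ p ^ (n + 1) = 1 := by
    have h2 : u ^ p ^ n = 1 := by
      have h3 : (⟨u, hu⟩ : W) ^ Nat.card W = 1 := pow_card_eq_one'
      rw [hn] at h3
      exact congrArg Subtype.val h3
    rw [pow_succ, pow_mul, h2, one_pow]
  rw [h1, mul_one, mul_inv_eq_iff_eq_mul] at hue
  exact hue.symm

section Main

variable {L : Type u} [Group L] [Finite L]

/-- The decomposition along a normal subgroup. -/
theorem good_of_normal (T : Sylow p L) (Good : Subgroup L → L → Prop)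
    (hcomp : ∀ A g h, A ≤ (T : Subgroup L) → cjSub g A ≤ (T : Subgroup L) →
      cjSub (h * g) A ≤ (T : Subgroup L) → Good A g → Good (cjSub g A) h → Good A (h * g))
    (N : Subgroup L) [hN : N.Normal]
    (hgN : ∀ A g, A ≤ (T : Subgroup L) → cjSub g A ≤ (T : Subgroup L) → g ∈ N → Good A g)
    (hgM : ∀ A g, A ≤ (T : Subgroup L) → cjSub g A ≤ (T : Subgroup L) →
      g ∈ normalizer (((T : Subgroup L) ⊓ N : Subgroup L) : Set L) → Good A g) :
    ∀ A g, A ≤ (T : Subgroup L) → cjSub g A ≤ (T : Subgroup L) → Good A g := by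
  intro A g hA hgA
  set M := normalizer (((T : Subgroup L) ⊓ N : Subgroup L) : Set L) with hM
  have hfrat : M ⊔ N = ⊤ := by
    have hp' : IsPGroup p (((T : Subgroup L) ⊓ N).subgroupOf N) :=
      (T.2.to_le inf_le_left).of_equiv (subgroupOfEquivOfLe inf_le_right).symm
    have hidx : ¬ p ∣ (((T : Subgroup L) ⊓ N).subgroupOf N).index := by
      show ¬ p ∣ ((T : Subgroup L) ⊓ N).relIndex N
      rw [inf_relIndex_right]
      exact H22.sylow_not_dvd_relIndex_normal T N
    have h := Sylow.normalizer_sup_eq_top (hp'.toSylow hidx)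
    rwa [show (((hp'.toSylow hidx) : Subgroup N)).map N.subtype = (T : Subgroup L) ⊓ N from
      map_subgroupOf_eq_of_le inf_le_right] at h
  have hTM : (T : Subgroup L) ≤ M := by
    intro t ht
    refine mem_normalizer_fintype (S := (((T : Subgroup L) ⊓ N : Subgroup L) : Set L)) fun y hy => ?_
    exact ⟨show t * y * t⁻¹ ∈ (T : Subgroup L) from mul_mem (mul_mem ht hy.1) (inv_mem ht),
      hN.conj_mem y hy.2 t⟩
  obtain ⟨n, hn, m, hm, hnm⟩ : ∃ n ∈ N, ∃ m ∈ M, n * m = g := by
    refine mem_sup_of_normal_left.1 (?_ : g ∈ N ⊔ M)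
    rw [sup_comm, hfrat]
    exact mem_top g
  -- a Sylow subgroup of `M ∩ NT`
  set Q := M ⊓ (N ⊔ (T : Subgroup L)) with hQ
  have hTQ : (T : Subgroup L) ≤ Q := le_inf hTM le_sup_right
  have hA1 : cjSub m A ≤ Q := by
    refine cjSub_le.2 fun a ha => ⟨M.mul_mem (M.mul_mem hm (hTM (hA ha))) (M.inv_mem hm), ?_⟩
    have h1 : g * a * g⁻¹ ∈ N ⊔ (T : Subgroup L) := mem_sup_right (cjSub_le.1 hgA a ha)
    have h2 : m * a * m⁻¹ = n⁻¹ * (g * a * g⁻¹) * n := by rw [← hnm]; group
    rw [h2]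
    exact mul_mem (mul_mem (mem_sup_left (inv_mem hn)) h1) (mem_sup_left hn)
  set T1 := T.subtype hTQ with hT1
  have hT1coe : (T1 : Subgroup Q) = (T : Subgroup L).subgroupOf Q := Sylow.coe_subtype ..
  have hA1p : IsPGroup p ((cjSub m A).subgroupOf Q) :=
    ((T.2.to_le hA).map _).of_equiv (subgroupOfEquivOfLe hA1).symm
  obtain ⟨P1, hP1⟩ := hA1p.exists_le_sylow
  obtain ⟨q, hq⟩ := MulAction.exists_smul_eq Q P1 T1
  obtain ⟨t, ht, n1, hn1, hq'⟩ : ∃ t ∈ (T : Subgroup L), ∃ n1 ∈ N, t * n1 = (q : L) := by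
    refine mem_sup_of_normal_right.1 (?_ : (q : L) ∈ (T : Subgroup L) ⊔ N)
    rw [sup_comm]
    exact q.2.2
  have hn1M : n1 ∈ M := by
    have : n1 = t⁻¹ * (q : L) := by rw [← hq']; group
    rw [this]
    exact mul_mem (inv_mem (hTM ht)) q.2.1
  have hA2 : cjSub (n1 * m) A ≤ (T : Subgroup L) := by
    refine cjSub_le.2 fun a ha => ?_
    have h1 : (⟨m * a * m⁻¹, hA1 ⟨a, ha, rfl⟩⟩ : Q) ∈ (P1 : Subgroup Q) :=
      hP1 (show m * a * m⁻¹ ∈ cjSub m A from ⟨a, ha, rfl⟩)
    have h2 : q * ⟨m * a * m⁻¹, hA1 ⟨a, ha, rfl⟩⟩ * q⁻¹ ∈ (T1 : Subgroup Q) := by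
      rw [← hq]
      exact ⟨_, h1, rfl⟩
    rw [hT1coe, mem_subgroupOf] at h2
    have h3 : n1 * m * a * (n1 * m)⁻¹ = t⁻¹ * ((q : L) * (m * a * m⁻¹) * (q : L)⁻¹) * t := by
      rw [← hq']; group
    rw [h3]
    exact mul_mem (mul_mem (inv_mem ht) h2) ht
  have hgn : g = (n * n1⁻¹) * (n1 * m) := by rw [← hnm]; group
  rw [hgn] at hgA ⊢
  refine hcomp A _ _ hA hA2 hgA (hgM A _ hA hA2 (mul_mem hn1M hm)) (hgN _ _ hA2 ?_ ?_)
  · rw [← cjSub_mul]; exact hgA
  · exact mul_mem hn (inv_mem hn1)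

/-- Glauberman's factorization in terms of conjugations inside the Sylow subgroup. -/
theorem good_of_generators (n : ℕ) : ∀ (L : Type u) [Group L] [Finite L], Nat.card L = n →
    Subgroup.centralizer ((Cfsg.pCore p L : Subgroup L) : Set L) ≤ Cfsg.pCore p L →
    ∀ (T : Sylow p L) (Good : Subgroup L → L → Prop),
    (∀ A g h, A ≤ (T : Subgroup L) → cjSub g A ≤ (T : Subgroup L) →
      cjSub (h * g) A ≤ (T : Subgroup L) → Good A g → Good (cjSub g A) h → Good A (h * g)) →
    (∀ A g, A ≤ (T : Subgroup L) → cjSub g A ≤ (T : Subgroup L) →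
      (∀ z ∈ (T : Subgroup L) ⊓ centralizer ((T : Subgroup L) : Set L), Commute g (z ^ p)) → Good A g) →
    (∀ A g, A ≤ (T : Subgroup L) → cjSub g A ≤ (T : Subgroup L) →
      g ∈ normalizer (Cfsg.thompsonSubgroupAOf (T : Subgroup L) : Set L) → Good A g) →
    ∀ A g, A ≤ (T : Subgroup L) → cjSub g A ≤ (T : Subgroup L) → Good A g := by
  induction n using Nat.strong_induction_on with
  | _ n ih =>
  intro L _ _ hn hchar T Good hcomp hC hJ
  set P := Cfsg.pCore p L with hP
  haveI hPn : P.Normal := H19.pCore_normal p L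
  have hPT : P ≤ (T : Subgroup L) := H19.pCore_le_sylow T
  -- proper overgroups of `T`
  have hsub : ∀ M : Subgroup L, (T : Subgroup L) ≤ M → M ≠ ⊤ →
      ∀ A g, A ≤ (T : Subgroup L) → cjSub g A ≤ (T : Subgroup L) → g ∈ M → Good A g := by
    intro M hTM hM A g hA hgA hgM
    have hlt : Nat.card M < n := hn ▸ H19.card_lt_of_ne_top M hM
    set T1 := T.subtype hTM with hT1
    have hT1coe : (T1 : Subgroup M) = (T : Subgroup L).subgroupOf M := Sylow.coe_subtype ..
    have hP1 : P.subgroupOf M ≤ Cfsg.pCore p M :=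
      H19.le_pCore Subgroup.normal_subgroupOf
        ((H19.pCore_isPGroup p).of_equiv (subgroupOfEquivOfLe (hPT.trans hTM)).symm)
    have hchar1 : centralizer ((Cfsg.pCore p M : Subgroup M) : Set M) ≤ Cfsg.pCore p M := by
      intro x hx
      refine hP1 (hchar (mem_centralizer_iff.2 fun y hy => ?_))
      exact congrArg Subtype.val (mem_centralizer_iff.1 hx ⟨y, hTM (hPT hy)⟩ (hP1 hy))
    have hmap : ∀ (x : M) (B : Subgroup M), (cjSub x B).map M.subtype = cjSub (x : L) (B.map M.subtype) := by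
      intro x B
      rw [cjSub, cjSub, Subgroup.map_map, Subgroup.map_map]
      rfl
    have hTmap : (T1 : Subgroup M).map M.subtype = (T : Subgroup L) := by
      rw [hT1coe, map_subgroupOf_eq_of_le hTM]
    have hle : ∀ B : Subgroup M, B ≤ (T1 : Subgroup M) → B.map M.subtype ≤ (T : Subgroup L) := fun B hB =>
      hTmap ▸ map_mono hB
    have key := ih _ hlt M rfl hchar1 T1 (fun B x => Good (B.map M.subtype) (x : L))
      (fun B x y hB hxB hyxB h1 h2 => by
        simp only [hmap] at h2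
        exact hcomp _ _ _ (hle B hB) (hmap x B ▸ hle _ hxB)
          (by
            have := hle _ hyxB
            rw [hmap] at this
            exact this) h1 h2)
      (fun B x hB hxB hx => hC _ _ (hle B hB) (hmap x B ▸ hle _ hxB) fun z hz => by
        have hz1 : (⟨z, hTM hz.1⟩ : M) ∈ (T1 : Subgroup M) ⊓ centralizer ((T1 : Subgroup M) : Set M) := by
          rw [hT1coe]
          exact ⟨hz.1, mem_centralizer_iff.2 fun t ht => Subtype.ext (mem_centralizer_iff.1 hz.2 t ht)⟩
        exact congrArg Subtype.val (hx _ hz1).eq)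
      (fun B x hB hxB hx => hJ _ _ (hle B hB) (hmap x B ▸ hle _ hxB) (by
        have hJmap := H72.map_thompsonSubgroupAOf M.subtype (T1 : Subgroup M) M.subtype_injective.injOn
        rw [hTmap] at hJmap
        rw [← hJmap]
        exact le_normalizer_map _ ⟨x, hx, rfl⟩))
      (A.subgroupOf M) ⟨g, hgM⟩ (by rw [hT1coe]; exact fun a ha => hA ha)
      (by
        rw [hT1coe]
        rintro _ ⟨a, ha, rfl⟩
        exact hgA ⟨a, ha, rfl⟩)
    rwa [map_subgroupOf_eq_of_le (hA.trans hTM)] at key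
  -- the module
  set Z := (T : Subgroup L) ⊓ centralizer ((T : Subgroup L) : Set L) with hZ
  set W := normalClosure (Z : Set L) with hW
  haveI hWn : W.Normal := normalClosure_normal
  have hZW : Z ≤ W := fun z hz => subset_normalClosure hz
  have hZP : Z ≤ P ⊓ centralizer (P : Set L) := fun z hz => by
    have : z ∈ centralizer (P : Set L) := centralizer_le (SetLike.coe_subset_coe.2 hPT) hz.2
    exact ⟨hchar this, this⟩
  haveI : (centralizer (P : Set L)).Normal := Subgroup.normal_centralizer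
  have hWP : W ≤ P := normalClosure_le_normal fun z hz => (hZP hz).1
  have hWC : W ≤ centralizer (P : Set L) := normalClosure_le_normal fun z hz => (hZP hz).2
  have hWc : ∀ v ∈ W, ∀ w ∈ W, Commute v w := fun v hv w hw =>
    mem_centralizer_iff.1 (hWC hw) v (hWP hv)
  have hPW : P ≤ centralizer (W : Set L) := le_centralizer_iff.1 hWC
  set Cw := centralizer (W : Set L) with hCw
  haveI hCwn : Cw.Normal := Subgroup.normal_centralizer
  have hCwGood : ∀ A g, A ≤ (T : Subgroup L) → cjSub g A ≤ (T : Subgroup L) → g ∈ Cw → Good A g :=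
    fun A g hA hgA hg => hC A g hA hgA fun z hz =>
      (show Commute g z from (mem_centralizer_iff.1 hg z (hZW hz)).symm).pow_right p
  -- a normal subgroup with good elements
  have hstep : ∀ (N : Subgroup L) [N.Normal],
      (∀ A g, A ≤ (T : Subgroup L) → cjSub g A ≤ (T : Subgroup L) → g ∈ N → Good A g) →
      (∀ A g, A ≤ (T : Subgroup L) → cjSub g A ≤ (T : Subgroup L) → Good A g) ∨
        (T : Subgroup L) ⊓ N ≤ Cw := by
    intro N hNn hgN
    by_cases htop : normalizer (((T : Subgroup L) ⊓ N : Subgroup L) : Set L) = ⊤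
    · exact Or.inr ((H19.le_pCore (normalizer_eq_top_iff.1 htop) (T.2.to_le inf_le_left)).trans hPW)
    · refine Or.inl (good_of_normal T Good hcomp N hgN fun A g hA hgA hg => hsub _ ?_ htop A g hA hgA hg)
      intro t ht
      refine mem_normalizer_fintype (S := (((T : Subgroup L) ⊓ N : Subgroup L) : Set L)) fun y hy => ?_
      exact ⟨show t * y * t⁻¹ ∈ (T : Subgroup L) from mul_mem (mul_mem ht hy.1) (inv_mem ht),
        hNn.conj_mem y hy.2 t⟩
  by_cases hJC : Cfsg.thompsonSubgroupAOf (T : Subgroup L) ≤ Cw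
  · refine good_of_normal T Good hcomp Cw hCwGood fun A g hA hgA hg => hJ A g hA hgA ?_
    rw [← H72.thompsonSubgroupAOf_eq_of_le (T := (T : Subgroup L)) (Q := (T : Subgroup L) ⊓ Cw)
      inf_le_left (le_inf (H72.thompsonSubgroupAOf_le _) hJC)]
    exact H72.normalizer_le_normalizer_thompsonSubgroupAOf _ hg
  obtain ⟨B, hB, hBC⟩ : ∃ B, H72.IsMaxAb (T : Subgroup L) B ∧ ¬ B ≤ Cw := by
    by_contra h
    push Not at h
    exact hJC (by rw [H72.thompsonSubgroupAOf_eq]; exact sSup_le h)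
  have hWT : W ≤ (T : Subgroup L) := hWP.trans hPT
  obtain ⟨b, hbT, hbC, hbq⟩ := exists_quadratic_of_maxAb T.2 hWT hWc hB hBC
  have hconj : ∀ v ∈ W, ∀ j : ℕ, b ^ j * v * (b ^ j)⁻¹ = ⁅b, v⁆ ^ j * v := by
    intro v hv j
    induction j with
    | zero => simp
    | succ j ihj =>
      calc b ^ (j + 1) * v * (b ^ (j + 1))⁻¹ = b * (b ^ j * v * (b ^ j)⁻¹) * b⁻¹ := by
            rw [pow_succ']; simp [mul_assoc]
        _ = b * (⁅b, v⁆ ^ j * v) * b⁻¹ := by rw [ihj]
        _ = ⁅b, v⁆ ^ j * (b * v * b⁻¹) := by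
            rw [← mul_assoc, ((hbq v hv).pow_right j).eq]; simp [mul_assoc]
        _ = ⁅b, v⁆ ^ (j + 1) * v := by
            rw [pow_succ, mul_assoc (⁅b, v⁆ ^ j), commutatorElement_def, inv_mul_cancel_right]
  have hcomW : ∀ v ∈ W, ⁅b, v⁆ ∈ W := fun v hv => mul_mem (hWn.conj_mem v hv b) (inv_mem hv)
  -- the elements trivial modulo `p`-th powers of `W`
  let K : Subgroup L :=
    { carrier := {g | ∀ w ∈ W, ∃ u ∈ W, g * w * g⁻¹ = w * u ^ p}
      one_mem' := fun w _ => ⟨1, one_mem _, by simp⟩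
      mul_mem' := fun {x y} hx hy w hw => by
        obtain ⟨u, hu, hue⟩ := hy w hw
        obtain ⟨v, hv, hve⟩ := hx w hw
        refine ⟨v * (x * u * x⁻¹), mul_mem hv (hWn.conj_mem u hu x), ?_⟩
        rw [(hWc v hv _ (hWn.conj_mem u hu x)).mul_pow, conj_pow, ← mul_assoc w, ← hve,
          show x * y * w * (x * y)⁻¹ = x * (y * w * y⁻¹) * x⁻¹ by group, hue]
        group
      inv_mem' := fun {x} hx w hw => by
        obtain ⟨u, hu, hue⟩ := hx (x⁻¹ * w * x) (by simpa using hWn.conj_mem w hw x⁻¹)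
        refine ⟨u⁻¹, inv_mem hu, ?_⟩
        have e : w = x⁻¹ * w * x * u ^ p := by
          rw [← hue]; group
        rw [inv_pow, inv_inv, eq_mul_inv_iff_mul_eq]
        exact e.symm }
  haveI hKn : K.Normal := ⟨fun x hx g w hw => by
    obtain ⟨u, hu, hue⟩ := hx (g⁻¹ * w * g) (by simpa using hWn.conj_mem w hw g⁻¹)
    refine ⟨g * u * g⁻¹, hWn.conj_mem u hu g, ?_⟩
    rw [conj_pow, show g * x * g⁻¹ * w * (g * x * g⁻¹)⁻¹ = g * (x * (g⁻¹ * w * g) * x⁻¹) * g⁻¹ by group,
      hue]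
    group⟩
  have hbK : b ^ p ∈ K := fun w hw => ⟨⁅b, w⁆, hcomW w hw, by
    rw [hconj w hw p]
    exact hWc _ (pow_mem (hcomW w hw) p) w hw⟩
  have hKgood : ∀ A g, A ≤ (T : Subgroup L) → cjSub g A ≤ (T : Subgroup L) → g ∈ K → Good A g := by
    intro A g hA hgA hg
    set f := QuotientGroup.mk' Cw with hf
    have hfs : Function.Surjective f := QuotientGroup.mk'_surjective Cw
    have hKp : IsPGroup p (K.map f) := by
      rintro ⟨_, x, hx, rfl⟩
      obtain ⟨k, hk⟩ := exists_pow_mem_centralizer (T.2.to_le hWT) hWc hx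
      exact ⟨k, Subtype.ext (by
        show f x ^ p ^ k = 1
        rw [← map_pow]
        exact (QuotientGroup.eq_one_iff _).2 hk)⟩
    have hle : K.map f ≤ (T : Subgroup L).map f := by
      have h := (H19.le_pCore (hKn.map f hfs) hKp).trans (H19.pCore_le_sylow (T.mapSurjective hfs))
      exact h
    obtain ⟨t, ht, hte⟩ := hle (mem_map_of_mem f hg)
    have hc : g * t⁻¹ ∈ Cw := by
      refine (QuotientGroup.eq_one_iff _).1 (?_ : f (g * t⁻¹) = 1)
      rw [map_mul, map_inv, hte, mul_inv_cancel]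
    have htA : cjSub t A ≤ (T : Subgroup L) :=
      cjSub_le.2 fun a ha => mul_mem (mul_mem ht (hA ha)) (inv_mem ht)
    have hg' : g = (g * t⁻¹) * t := by group
    rw [hg'] at hgA ⊢
    refine hcomp A t (g * t⁻¹) hA htA hgA
      (hJ A t hA htA (H72.le_normalizer_thompsonSubgroupAOf _ ht)) (hCwGood _ _ htA ?_ hc)
    rw [← cjSub_mul]; exact hgA
  rcases hstep K hKgood with h | h
  · exact h
  have hbp : b ^ p ∈ Cw := h ⟨pow_mem hbT p, hbK⟩
  set D := centralizer ((fun w : L => w ^ p) '' (W : Set L)) with hD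
  haveI hDn : D.Normal := ⟨fun x hx g => mem_centralizer_iff.2 (by
    rintro _ ⟨w, hw, rfl⟩
    have h1 := mem_centralizer_iff.1 hx _ ⟨g⁻¹ * w * g, by simpa using hWn.conj_mem w hw g⁻¹, rfl⟩
    simp only [show (g⁻¹ * w * g) ^ p = g⁻¹ * w ^ p * g by
      simpa using conj_pow (i := p) (a := g⁻¹) (b := w)] at h1
    calc w ^ p * (g * x * g⁻¹) = g * (g⁻¹ * w ^ p * g * x) * g⁻¹ := by group
      _ = g * (x * (g⁻¹ * w ^ p * g)) * g⁻¹ := by rw [h1]
      _ = g * x * g⁻¹ * w ^ p := by group)⟩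
  have hbD : b ∈ D := mem_centralizer_iff.2 (by
    rintro _ ⟨w, hw, rfl⟩
    have h1 := hconj w hw p
    have h2 : b ^ p * w * (b ^ p)⁻¹ = w :=
      mul_inv_eq_iff_eq_mul.2 (mem_centralizer_iff.1 hbp w hw).symm
    rw [h2] at h1
    have h3 : ⁅b, w⁆ ^ p = 1 := mul_eq_right.1 h1.symm
    have h4 : b * w * b⁻¹ = ⁅b, w⁆ * w := by rw [commutatorElement_def, inv_mul_cancel_right]
    have h5 : b * w ^ p * b⁻¹ = w ^ p := by
      rw [← conj_pow, h4, (hWc _ (hcomW w hw) w hw).mul_pow, h3, one_mul]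
    exact (mul_inv_eq_iff_eq_mul.1 h5).symm)
  rcases hstep D (fun A g hA hgA hg => hC A g hA hgA fun z hz =>
      (mem_centralizer_iff.1 hg _ ⟨z, hZW hz, rfl⟩).symm) with h | h
  · exact h
  · exact absurd (h ⟨hbT, hbD⟩) hbC

end Main

end Cfsg.Agent.H93.Factorization
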