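import Cfsg.Agent.H93.Model

/-!
Uniqueness and rigidity of models.
-/

set_option autoImplicit false

namespace Cfsg.Agent.H93.Models

open Cfsg Cfsg.FusionSystem
open scoped IsMulCommutative

universe u v

variable {Ω : Type u} [Group Ω] {S : Subgroup Ω} {F : FusionSystem S} {Q : Subgroup Ω} {p : ℕ}
  {G : Type v} [Group G] {ι : S →* G}

/-- In a model the image of a normal centric subgroup is normal, with centralizer inside the image of its
centre, and the model maps onto `Aut_F(Q)` by conjugation. -/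
theorem exists_action [Finite S] [Fact p.Prime] (hS : IsPGroup p S)
    (hQ : F.IsNormal Q) (hc : F.IsCentric Q) (hG : F.IsModel p G ι) :
    ∃ q₁ : G →* F.autGroup Q, Function.Surjective q₁ ∧ (∀ s : S, q₁ (ι s) = conjL hQ s) ∧
      (∀ (g : G) (x : Q), g * ι (Subgroup.inclusion hQ.1 x) * g⁻¹
        = ι (Subgroup.inclusion hQ.1 (((q₁ g : F.autGroup Q) : MulAut Q) x))) ∧
      ∀ g : G, q₁ g = 1 → ∃ z : Subgroup.center Q, g = ι (Subgroup.inclusion hQ.1 (z : Q)) := by
  have := hG.1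
  obtain ⟨hQ', hc'⟩ := IsModel.modelCore_normal_centric hG
  obtain ⟨-, ⟨hi, hiff⟩, hT, hC⟩ := hG
  have := H19.pCore_normal p G
  set j := ι.comp (Subgroup.inclusion hQ.1) with hj
  have hjinj : Function.Injective j := hi.comp (Subgroup.inclusion_injective _)
  set QI := j.range with hQI
  have := finite_of_le hQ.1
  have : Finite (QI : Set G) := Finite.of_surjective j.rangeRestrict j.rangeRestrict_surjective
  -- the image of `Q` is normal
  have hnormal : QI.Normal := by
    refine Subgroup.normalizer_eq_top_iff.1 (top_le_iff.1 fun g _ => ?_)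
    set Q₀ := modelCore p ι
    set f : Q₀ →* G := ((MulAut.conj g).toMonoidHom.comp ι).comp (Subgroup.inclusion modelCore_le) with hf
    have hfv : ∀ x, f x ∈ ι.range := fun x => pCore_le_range hT
      (Subgroup.Normal.conj_mem inferInstance _ (mem_modelCore.1 x.2).2 g)
    set φ := (realizedInv hi).comp (f.codRestrict ι.range hfv) with hφ
    have hφv : ∀ x, φ x ∈ S := fun x => realizedInv_mem hi _
    have hφm : φ ∈ F.Hom Q₀ :=
      (hiff _ modelCore_le φ hφv).2 ⟨g, fun x => apply_realizedInv hi _ (hφv x)⟩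
    obtain ⟨ψ, hψ, h1, h2⟩ := hQ.2 Q₀ φ hφm
    obtain ⟨g', hg'⟩ := (hiff _ (sup_le modelCore_le hQ.1) ψ (fun x => apply_mem hψ x)).1 hψ
    have hg'n : g' ∈ Subgroup.normalizer (QI : Set G) := by
      refine Subgroup.mem_normalizer_fintype fun y hy => ?_
      obtain ⟨x, rfl⟩ := hy
      refine ⟨⟨ψ (Subgroup.inclusion le_sup_right x), h2.le ⟨_, x.2, rfl⟩⟩, ?_⟩
      exact hg' (Subgroup.inclusion le_sup_right x)
    have hdiff : g'⁻¹ * g ∈ pCore p G := by
      refine hC (Subgroup.mem_centralizer_iff.2 fun y hy => ?_)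
      obtain ⟨s, rfl⟩ := pCore_le_range hT (SetLike.mem_coe.1 hy)
      have hs : (s : Ω) ∈ Q₀ := mem_modelCore.2 ⟨s.2, hy⟩
      have e1 : ι ⟨φ ⟨s, hs⟩, hφv _⟩ = g * ι s * g⁻¹ := apply_realizedInv hi _ (hφv _)
      have e2 : ι ⟨φ ⟨s, hs⟩, hφv _⟩ = g' * ι s * g'⁻¹ :=
        Eq.trans (congrArg ι (Subtype.ext (h1 ⟨s, hs⟩).symm)) (hg' (Subgroup.inclusion le_sup_left ⟨s, hs⟩))
      have e3 : g * ι s = g' * ι s * g'⁻¹ * g := mul_inv_eq_iff_eq_mul.1 (e1.symm.trans e2)
      rw [mul_assoc g'⁻¹ g, e3]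
      simp [mul_assoc]
    obtain ⟨s, hs⟩ := pCore_le_range hT hdiff
    have hsn : ι s ∈ Subgroup.normalizer (QI : Set G) := by
      refine Subgroup.mem_normalizer_fintype fun y hy => ?_
      obtain ⟨x, rfl⟩ := hy
      refine ⟨⟨_, mem_normalizerIn_conj (le_normalizerIn_self hQ s.2) x.2⟩, ?_⟩
      show ι _ = ι s * ι (Subgroup.inclusion hQ.1 x) * (ι s)⁻¹
      rw [← map_inv, ← map_mul, ← map_mul]
      rfl
    have := Subgroup.mul_mem _ hg'n (hs ▸ hsn)
    rwa [mul_inv_cancel_left] at this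
  -- the action
  set c := MulAut.congr (MonoidHom.ofInjective hjinj).symm
  have hcong : ∀ (g : G) (x : Q), g * j x * g⁻¹ = j (c (MulAut.conjNormal g) x) := by
    intro g x
    have h : MonoidHom.ofInjective hjinj (c (MulAut.conjNormal g) x)
        = MulAut.conjNormal g (MonoidHom.ofInjective hjinj x) := by
      simp [c, MulAut.congr]
    exact (congrArg Subtype.val h).symm
  have hmem : ∀ g, c (MulAut.conjNormal g) ∈ F.autGroup Q := by
    intro g
    rw [mem_autGroup_iff hQ.1, hiff Q hQ.1 _ fun x => hQ.1 (Subtype.coe_prop _)]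
    exact ⟨g, fun x => (hcong g x).symm⟩
  set q₁ : G →* F.autGroup Q :=
    (c.toMonoidHom.comp MulAut.conjNormal).codRestrict _ hmem with hq₁
  have hqι : ∀ s : S, q₁ (ι s) = conjL hQ s := by
    intro s
    refine ((conjL_eq_iff hQ).2 fun x => ?_).symm
    have h : ι s * ι (Subgroup.inclusion hQ.1 x) * (ι s)⁻¹
        = ι (Subgroup.inclusion hQ.1 (c (MulAut.conjNormal (ι s)) x)) := hcong (ι s) x
    rw [← map_inv, ← map_mul, ← map_mul] at h
    exact congrArg Subtype.val (hi h)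
  refine ⟨q₁, fun l => ?_, hqι, hcong, fun g hg => ?_⟩
  · obtain ⟨g, hg⟩ := (hiff Q hQ.1 _ fun x => hQ.1 (Subtype.coe_prop _)).1 ((mem_autGroup_iff hQ.1).1 l.2)
    exact ⟨g, Subtype.ext (MulEquiv.ext fun x => hjinj ((hcong g x).symm.trans (hg x).symm))⟩
  · obtain ⟨T, hT'⟩ := hT
    have hker_range : ∀ k, q₁ k = 1 → k ∈ ι.range → ∃ z : Subgroup.center Q,
        k = ι (Subgroup.inclusion hQ.1 (z : Q)) := by
      rintro k hk ⟨s, rfl⟩
      rw [hqι] at hk
      exact ⟨⟨⟨s, mem_of_conjL_eq_one hQ hc hk⟩, center_of_conjL_eq_one hQ hk _⟩, rfl⟩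
    suffices hker : q₁.ker ≤ ι.range from hker_range g hg (hker hg)
    have hp : IsPGroup p q₁.ker := by
      by_contra hnp
      obtain ⟨k, hk⟩ : ∃ k : q₁.ker, ∀ n, k ^ p ^ n ≠ 1 := by
        simpa [IsPGroup, not_forall] using hnp
      set b := (orderOf (k : G)).factorization p
      set c₀ : G := (k : G) ^ p ^ b with hc₀
      have hc₀ker : q₁ c₀ = 1 := by rw [hc₀, map_pow, show q₁ (k : G) = 1 from k.2, one_pow]
      have hc₀ne : c₀ ≠ 1 := fun h => hk b (Subtype.ext h)
      have hcop : (orderOf c₀).Coprime p := by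
        rw [hc₀, orderOf_pow, Nat.gcd_eq_right (Nat.ordProj_dvd _ _)]
        exact (Nat.coprime_ordCompl Fact.out (orderOf_pos (k : G)).ne').symm
      have hcent : c₀ ∈ pCore p G := by
        refine hC (Subgroup.mem_centralizer_iff.2 fun x hx => ?_)
        set w := c₀ * x * c₀⁻¹ * x⁻¹ with hw
        have hw1 : w ∈ ι.range := pCore_le_range ⟨T, hT'⟩
          (Subgroup.mul_mem _ (Subgroup.Normal.conj_mem inferInstance x hx c₀) (Subgroup.inv_mem _ hx))
        have hw2 : q₁ w = 1 := by simp [hw, hc₀ker]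
        obtain ⟨z, hz⟩ := hker_range w hw2 hw1
        have hcw : c₀ * w = w * c₀ := by
          refine mul_inv_eq_iff_eq_mul.1 ?_
          rw [hz]
          refine (hcong c₀ (z : Q)).trans ?_
          rw [show c (MulAut.conjNormal c₀) = ((q₁ c₀ : F.autGroup Q) : MulAut Q) from rfl, hc₀ker]
          rfl
        have hpow : ∀ n : ℕ, c₀ ^ n * x * (c₀ ^ n)⁻¹ = w ^ n * x := by
          intro n
          induction n with
          | zero => simp
          | succ n ih =>
            calc c₀ ^ (n + 1) * x * (c₀ ^ (n + 1))⁻¹ = c₀ * (c₀ ^ n * x * (c₀ ^ n)⁻¹) * c₀⁻¹ := by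
                  simp [pow_succ', mul_assoc]
              _ = c₀ * (w ^ n * x) * c₀⁻¹ := by rw [ih]
              _ = w ^ n * (c₀ * x * c₀⁻¹) := by
                  rw [← mul_assoc c₀, (Commute.pow_right hcw n).eq]; simp [mul_assoc]
              _ = w ^ (n + 1) * x := by rw [pow_succ, hw]; simp [mul_assoc]
        have h0 := hpow (orderOf c₀)
        rw [pow_orderOf_eq_one, one_mul, inv_one, mul_one, eq_comm, mul_eq_right] at h0
        obtain ⟨a, ha⟩ := (T.isPGroup') ⟨w, hT' ▸ hw1⟩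
        have h1 : orderOf w = 1 := Nat.eq_one_of_dvd_coprimes (hcop.pow_right a)
          (orderOf_dvd_of_pow_eq_one h0) (orderOf_dvd_of_pow_eq_one (congrArg Subtype.val ha))
        rw [orderOf_eq_one_iff, hw, mul_inv_eq_one, mul_inv_eq_iff_eq_mul] at h1
        exact h1.symm
      obtain ⟨a, ha⟩ := H19.pCore_isPGroup (G := G) p ⟨c₀, hcent⟩
      exact hc₀ne (orderOf_eq_one_iff.1 (Nat.eq_one_of_dvd_coprimes (hcop.pow_right a) dvd_rfl
        (orderOf_dvd_of_pow_eq_one (congrArg Subtype.val ha))))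
    intro k hk
    exact pCore_le_range ⟨T, hT'⟩ (H19.le_pCore (MonoidHom.normal_ker q₁) hp hk)

/-- Every model is isomorphic to the constructed one, compatibly with the embeddings. -/
theorem exists_equiv [Finite S] [Fact p.Prime] (hS : IsPGroup p S) (hF : F.IsSaturated p)
    {hQ : F.IsNormal Q} (hc : F.IsCentric Q) {σ : S →* MonoExt hQ} (hσ : IsSection hQ σ)
    (hG : F.IsModel p G ι) : ∃ Θ : G ≃* Model hQ hc, ∀ s, Θ (ι s) = embed hc σ s := by
  classical
  obtain ⟨q₁, hsurj, hqι, hconj, hker⟩ := exists_action hS hQ hc hG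
  have hi := hG.2.1.1
  have hiff := hG.2.1.2
  have hrange : ∀ g, q₁ g ∈ (conjL hQ).range → g ∈ ι.range := by
    rintro g ⟨s, hs⟩
    obtain ⟨z, hz⟩ := hker ((ι s)⁻¹ * g) (by rw [map_mul, map_inv, hqι, hs, inv_mul_cancel])
    exact ⟨s * Subgroup.inclusion hQ.1 (z : Q), by rw [map_mul, ← hz, mul_inv_cancel_left]⟩
  letI : MulAction S (Idx hQ) := MulAction.compHom _ (conjL hQ)
  have hsmul : ∀ (s : S) (i : Idx hQ), s • i = conjL hQ s • i := fun _ _ => rfl
  let o : Idx hQ → Idx hQ := fun i => (Quotient.mk (MulAction.orbitRel S (Idx hQ)) i).out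
  have ho : ∀ (s : S) i, o (s • i) = o i := fun s i =>
    congrArg Quotient.out (Quotient.sound (MulAction.mem_orbit i s))
  have hot : ∀ i, ∃ t : S, t • o i = i := fun i =>
    MulAction.mem_orbit_symm.1 (Quotient.exact (Quotient.out_eq (Quotient.mk (MulAction.orbitRel S _) i)))
  choose t ht using hot
  -- representatives in the model, coherent with the section
  have hR : ∀ i, ∃ R : G, q₁ R = rep hQ i ∧ ∀ v : S, v • i = i →
      R⁻¹ * ι v * R = ι ((σ v).f i) := by
    intro i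
    obtain ⟨R₀, hR₀⟩ := hsurj (rep hQ i)
    set W := stabS hQ i
    obtain ⟨A, hA, hAe⟩ := hσ.hom_mem i
    set f : W →* G := ((MulAut.conj R₀⁻¹).toMonoidHom.comp ι).comp (Subgroup.inclusion (stabS_le hQ i))
    have hfv : ∀ x, f x ∈ ι.range := by
      intro x
      refine hrange _ ?_
      obtain ⟨hxS, hxi⟩ := (mem_stabS hQ).1 x.2
      have h := rep_smul_mem hQ (conjL hQ ⟨x, hxS⟩) i
      rw [hxi] at h
      rw [show q₁ (f x) = (rep hQ i)⁻¹ * conjL hQ ⟨x, hxS⟩ * rep hQ i from by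
        simp [f, hR₀, hqι, mul_assoc]; rfl]
      exact h
    set B := (realizedInv hi).comp (f.codRestrict ι.range hfv) with hB
    have hBv : ∀ x, B x ∈ S := fun x => realizedInv_mem hi _
    have hBe : ∀ x, ι ⟨B x, hBv x⟩ = f x := fun x => apply_realizedInv hi _ (hBv x)
    have hBm : B ∈ F.Hom W :=
      (hiff _ (stabS_le hQ i) B hBv).2 ⟨R₀⁻¹, fun x => by rw [hBe]; rfl⟩
    have hAB : ∀ q : Q, B (Subgroup.inclusion (le_stabS hQ i) q)
        = A (Subgroup.inclusion (le_stabS hQ i) q) := by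
      intro q
      rw [hAe]
      refine Eq.trans ?_ (hσ.apply_Q i q).symm
      refine congrArg Subtype.val (hi (a₁ := (⟨_, hBv _⟩ : S))
        (a₂ := Subgroup.inclusion hQ.1 ((((rep hQ i)⁻¹ : F.autGroup Q) : MulAut Q) q)) ?_)
      rw [hBe, ← hR₀, ← map_inv, ← hconj R₀⁻¹ q]
      rfl
    obtain ⟨z, hzc, hz⟩ := exists_center_adjust hS hF hc (le_stabS hQ i) hBm hA hAB
    refine ⟨R₀ * (ι ⟨B (Subgroup.inclusion (le_stabS hQ i) z), hBv _⟩)⁻¹, ?_, fun v hv => ?_⟩
    · have hBz : (⟨B (Subgroup.inclusion (le_stabS hQ i) z), hBv _⟩ : S)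
          = Subgroup.inclusion hQ.1 (onCenter ((((rep hQ i)⁻¹ : F.autGroup Q) : MulAut Q)) ⟨z, hzc⟩ : Q) :=
        Subtype.ext ((hAB z).trans ((hAe _).trans (hσ.apply_Q i z)))
      rw [map_mul, map_inv, hqι, hBz, conjL_center hQ (SetLike.coe_mem _), hR₀, inv_one, mul_one]
    · have h := hz ⟨v, (mem_stabS hQ).2 ⟨v.2, hv⟩⟩
      have h' : (σ v).f i = ⟨B (Subgroup.inclusion (le_stabS hQ i) z), hBv _⟩ *
          ⟨B ⟨v, (mem_stabS hQ).2 ⟨v.2, hv⟩⟩, hBv _⟩ *
          (⟨B (Subgroup.inclusion (le_stabS hQ i) z), hBv _⟩)⁻¹ :=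
        Subtype.ext ((hAe _).symm.trans h)
      rw [h', map_mul, map_mul, map_inv, hBe ⟨v, (mem_stabS hQ).2 ⟨v.2, hv⟩⟩]
      simp [f, mul_assoc]
      rfl
  choose R₁ hR₁q hR₁e using hR
  let R : Idx hQ → G := fun i => ι (t i) * R₁ (o i) * (ι ((σ (t i)).f (o i)))⁻¹
  have hRq : ∀ i, q₁ (R i) = rep hQ i := by
    intro i
    simp only [R, map_mul, map_inv, hqι, hR₁q, MonoExt.compat, hσ.proj_eq, ← hsmul, ht]
    simp [mul_assoc]
  have hRs : ∀ (s : S) i, (R (s • i))⁻¹ * ι s * R i = ι ((σ s).f i) := by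
    intro s i
    set v := (t (s • i))⁻¹ * s * t i with hv
    have hvfix : v • o i = o i := by
      rw [mul_smul, mul_smul, ht, inv_smul_eq_iff]
      conv_rhs => rw [← ho s i, ht]
    have hsplit : s * t i = t (s • i) * v := by simp [hv, mul_assoc]
    have e1 : (σ s).f i * (σ (t i)).f (o i) = (σ (t (s • i))).f (o i) * (σ v).f (o i) := by
      have := congrArg (fun m => (σ m).f (o i)) hsplit
      simp only [map_mul, mul_f, hσ.proj_eq, ← hsmul, ht, hvfix] at this
      exact this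
    simp only [R, ho]
    rw [eq_mul_inv_iff_mul_eq.2 e1, map_mul, map_mul, map_inv, ← hR₁e (o i) v hvfix, hv,
      map_mul, map_mul, map_inv]
    simp [mul_assoc]
  have hfc : ∀ g i, ∃ s : S, ι s = (R (q₁ g • i))⁻¹ * g * R i := by
    intro g i
    refine hrange _ ?_
    rw [map_mul, map_mul, map_inv, hRq, hRq]
    exact rep_smul_mem hQ _ i
  choose fc hfce using hfc
  have hfcc : ∀ g i, conjL hQ (fc g i) = (rep hQ (q₁ g • i))⁻¹ * q₁ g * rep hQ i := by
    intro g i
    rw [← hqι, hfce, map_mul, map_mul, map_inv, hRq, hRq]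
  let Θ₀ : G →* MonoExt hQ := MonoidHom.mk' (fun g => ⟨q₁ g, fc g, hfcc g⟩) fun a b =>
    MonoExt.ext' (map_mul _ _ _) fun i => hi (by
      show ι (fc (a * b) i) = ι (fc a (q₁ b • i) * fc b i)
      rw [map_mul ι, hfce, hfce, hfce, map_mul, mul_smul]
      simp [mul_assoc])
  let Θ := (QuotientGroup.mk' (tauKer (hQ := hQ) hc)).comp Θ₀
  have hΘι : ∀ s, Θ (ι s) = embed hc σ s := by
    intro s
    refine congrArg QuotientGroup.mk (MonoExt.ext' ((hqι s).trans (hσ.proj_eq s).symm) fun i => hi ?_)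
    show ι (fc (ι s) i) = _
    rw [hfce, hqι, ← hsmul, hRs]
  have hΘq : ∀ g, modelProj hc (Θ g) = q₁ g := fun g => rfl
  have hΘi : Function.Injective Θ := by
    rw [injective_iff_map_eq_one]
    intro g hg
    obtain ⟨z, rfl⟩ := hker g (by rw [← hΘq, hg, map_one])
    rw [hΘι] at hg
    rw [show Subgroup.inclusion hQ.1 (z : Q) = 1 from embed_injective hc hσ hS hF (hg.trans (map_one _).symm),
      map_one]
  have hΘs : Function.Surjective Θ := by
    intro x
    obtain ⟨g, hg⟩ := hsurj (modelProj hc x)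
    obtain ⟨z, hz⟩ := exists_central_of_modelProj_eq_one hc hσ hS hF
      (x := (Θ g)⁻¹ * x) (by rw [map_mul, map_inv, hΘq, hg, inv_mul_cancel])
    exact ⟨g * ι (Subgroup.inclusion hQ.1 (z : Q)), by rw [map_mul, hΘι, ← hz, mul_inv_cancel_left]⟩
  exact ⟨MulEquiv.ofBijective Θ ⟨hΘi, hΘs⟩, hΘι⟩

/-- An automorphism of a model fixing the image of `S` is conjugation by a central element of `S`. -/
theorem exists_center_of_fix [Finite S] [Fact p.Prime] (hS : IsPGroup p S) (hF : F.IsSaturated p)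
    {hQ : F.IsNormal Q} (hc : F.IsCentric Q) (hG : F.IsModel p G ι) (ψ : G ≃* G)
    (hψ : ∀ x : S, ψ (ι x) = ι x) :
    ∃ z : S, z ∈ Subgroup.center S ∧ ∀ g : G, ψ g = ι z * g * (ι z)⁻¹ := by
  classical
  obtain ⟨q₁, hsurj, hqι, hconj, hker⟩ := exists_action hS hQ hc hG
  have hi := hG.2.1.1
  have hψq : ∀ g, q₁ (ψ g) = q₁ g := fun g => Subtype.ext (MulEquiv.ext fun x =>
    Subgroup.inclusion_injective hQ.1 (hi (by
      rw [← hconj, ← hψ (Subgroup.inclusion hQ.1 (((q₁ g : F.autGroup Q) : MulAut Q) x)), ← hconj,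
        map_mul, map_mul, map_inv, hψ])))
  have hv : ∀ g, ∃ v : Subgroup.center Q, ψ g * g⁻¹ = ι (Subgroup.inclusion hQ.1 (v : Q)) := fun g =>
    hker _ (by rw [map_mul, map_inv, hψq, mul_inv_cancel])
  choose v hve using hv
  let jz : Subgroup.center Q →* G := (ι.comp (Subgroup.inclusion hQ.1)).comp (Subgroup.center Q).subtype
  have hjz : Function.Injective jz :=
    (hi.comp (Subgroup.inclusion_injective _)).comp (Subgroup.subtype_injective _)
  have hact : ∀ g (z : Subgroup.center Q), g * jz z * g⁻¹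
      = jz (onCenter ((q₁ g : F.autGroup Q) : MulAut Q) z) := fun g z => hconj g z
  have hcross : ∀ g h, v (g * h) = v g * onCenter ((q₁ g : F.autGroup Q) : MulAut Q) (v h) := by
    intro g h
    apply hjz
    rw [map_mul, ← hact]
    show ι (Subgroup.inclusion hQ.1 (v (g * h) : Q)) = ι (Subgroup.inclusion hQ.1 (v g : Q))
      * (g * ι (Subgroup.inclusion hQ.1 (v h : Q)) * g⁻¹)
    rw [← hve, ← hve, ← hve, map_mul]
    simp [mul_assoc]
  have hvι : ∀ s, v (ι s) = 1 := fun s => hjz (by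
    rw [map_one]
    show ι (Subgroup.inclusion hQ.1 (v (ι s) : Q)) = 1
    rw [← hve, hψ, mul_inv_cancel])
  have hcoset : ∀ g s, v (g * ι s) = v g := fun g s => by rw [hcross, hvι, map_one, mul_one]
  have : Finite G := hG.1
  letI := Fintype.ofFinite (G ⧸ ι.range)
  let c : G ⧸ ι.range → Subgroup.center Q := Quotient.lift v fun a b hab => by
    have h := QuotientGroup.leftRel_apply.1 hab
    obtain ⟨s, hs⟩ := h
    rw [show b = a * ι s by rw [hs, mul_inv_cancel_left], hcoset]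
  have hc' : ∀ g, c (QuotientGroup.mk g) = v g := fun g => rfl
  set w := ∏ x, c x with hw
  have hkey : ∀ g, w = v g ^ Fintype.card (G ⧸ ι.range) * onCenter ((q₁ g : F.autGroup Q) : MulAut Q) w := by
    intro g
    rw [hw, map_prod, ← Finset.card_univ, ← Finset.prod_const, ← Finset.prod_mul_distrib]
    refine (Fintype.prod_equiv (MulAction.toPerm g) _ _ fun x => ?_).symm
    induction x using QuotientGroup.induction_on with
    | H a =>
      rw [MulAction.toPerm_apply]
      show v g * onCenter _ (v a) = v (g * a)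
      rw [hcross]
  have := finite_of_le hQ.1
  have hcop : (Nat.card (Subgroup.center Q)).Coprime (Fintype.card (G ⧸ ι.range)) := by
    obtain ⟨T, hT⟩ := hG.2.2.1
    obtain ⟨a, ha⟩ := IsPGroup.iff_card.1 ((hS.to_le hQ.1).to_subgroup (Subgroup.center Q))
    rw [ha, ← Nat.card_eq_fintype_card]
    refine Nat.Coprime.pow_left a ((Fact.out : p.Prime).coprime_iff_not_dvd.2 ?_)
    show ¬ p ∣ ι.range.index
    rw [← hT]
    exact T.not_dvd_index
  have := finite_of_le hQ.1
  obtain ⟨z, hz⟩ := (powCoprime hcop).surjective w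
  have hvz : ∀ g, v g = z * (onCenter ((q₁ g : F.autGroup Q) : MulAut Q) z)⁻¹ := by
    intro g
    apply (powCoprime hcop).injective
    show v g ^ _ = _ ^ _
    rw [mul_pow, inv_pow, ← map_pow, show z ^ Fintype.card (G ⧸ ι.range) = w from hz]
    exact eq_mul_inv_of_mul_eq (hkey g).symm
  have hfinal : ∀ g : G, ψ g = ι (Subgroup.inclusion hQ.1 (z : Q)) * g * (ι (Subgroup.inclusion hQ.1 (z : Q)))⁻¹ := by
    intro g
    show ψ g = jz z * g * (jz z)⁻¹
    calc ψ g = jz (v g) * g := by rw [show jz (v g) = ψ g * g⁻¹ from (hve g).symm]; simp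
      _ = jz z * (g * jz z * g⁻¹)⁻¹ * g := by rw [hvz, map_mul, map_inv, hact]
      _ = jz z * g * (jz z)⁻¹ := by simp [mul_assoc]
  refine ⟨Subgroup.inclusion hQ.1 (z : Q), Subgroup.mem_center_iff.2 fun s => hi ?_, hfinal⟩
  have h := hfinal (ι s)
  rw [hψ] at h
  rw [map_mul, map_mul]
  exact eq_mul_inv_iff_mul_eq.1 h

end Cfsg.Agent.H93.Models
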